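import Mathlib
import Cfsg.Agent.H808.D4.Chev
import Cfsg.Agent.TwoFusion.SLTwoFacts

/-!
# Root elements of `D.group K` (helper808)

* `xx hp K r t : ↥(D.group K)` : the root elements; `hh hp K i c` : `h_{p_i}(c)`;
* `xx_add`, `xx_inv`, `xx_comm`, `xx_comm_of_coeff`, `hh_conj`, `top_le_of_xx`;
* `perfect_range` : the range of a homomorphism of `SL(2,K)`, `|K| > 3`, is perfect.
-/

set_option autoImplicit false
set_option linter.unusedSectionVars false

namespace Cfsg.Agent.H808.GTwo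

open Cfsg.Agent.ChevalleyStructure
open Cfsg Cfsg.Lie Cfsg.Lie.ChevalleyDatum
open Cfsg.Agent.ChevalleyStructure.Elts Cfsg.Agent.ChevalleyStructure.NPerm
open Cfsg.Agent.Nodes.RGDChev
open Cfsg.Agent.OddHalf.LongSL Cfsg.Agent.OddHalf.LongSL.Chev
open Cfsg.Agent.H808.D4
open scoped commutatorElement

/-- the range of a homomorphism of `SL(2,K)`, `|K| > 3`, is perfect -/
theorem perfect_range {Y : Type*} [Group Y] {K : Type*} [Field K] [Fintype K] (h : 3 < Fintype.card K)
    (φ : Matrix.SpecialLinearGroup (Fin 2) K →* Y) : ⁅φ.range, φ.range⁆ = φ.range := by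
  have h1 := TwoFusion.SLTwoFacts.commutator_eq_top (F := K) h
  rw [MonoidHom.range_eq_map, ← Subgroup.map_commutator, ← _root_.commutator_def, h1]

variable {D : ChevalleyDatum} {l : ℕ} {M : CoxeterMatrix (Fin l)} (hp : IsType D l M) (K : Type) [Field K]

/-- the root elements -/
noncomputable def xx (r : ℕ) (t : K) : ↥(D.group K) := ⟨xG hp.inList r t, xG_mem_group hp.inList r t⟩

/-- the elements `h_{p_i}(c)` -/
noncomputable def hh (i : Fin l) (c : K) : ↥(D.group K) :=
  ⟨hG hp.inList (D.simple i) c, hG_mem_group hp.inList _ c⟩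

theorem coe_xx (r : ℕ) (t : K) : (xx hp K r t : GL D.Idx K) = xG hp.inList r t := rfl

theorem xx_add (r : ℕ) (t u : K) : xx hp K r t * xx hp K r u = xx hp K r (t + u) :=
  Subtype.ext (xG_add hp.inList r t u)

theorem xx_zero (r : ℕ) : xx hp K r 0 = 1 := Subtype.ext (xG_zero hp.inList r)

theorem xx_inv (r : ℕ) (t : K) : (xx hp K r t)⁻¹ = xx hp K r (-t) := Subtype.ext (xG_inv hp.inList r t)

theorem xx_injective {r : ℕ} (hr : r < D.nroots) : Function.Injective (xx hp K r) := fun _ _ h =>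
  xG_injective hp.inList hr (congrArg Subtype.val h)

theorem xx_ne_one {r : ℕ} (hr : r < D.nroots) {t : K} (ht : t ≠ 0) : xx hp K r t ≠ 1 := by
  rw [← xx_zero hp K r]
  exact fun h => ht (xx_injective hp K hr h)

theorem xx_comm {r s : ℕ} (hr : r < D.nroots) (hs : s < D.nroots) (hrs : s ≠ r) (hneg : s ≠ D.neg r)
    (hnil : D.commTerms r s = []) (t u : K) : xx hp K s u * xx hp K r t = xx hp K r t * xx hp K s u :=
  Subtype.ext (commute_xG hp K hr hs hrs hneg hnil t u)

theorem wordG_eq_one (w : List (ℕ × K)) (h : ∀ p ∈ w, p.2 = 0) : wordG hp.inList w = 1 := by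
  induction w with
  | nil => rfl
  | cons p w ih =>
    rw [wordG_cons, h p List.mem_cons_self, xG_zero, ih fun q hq => h q (List.mem_cons_of_mem _ hq), one_mul]

/-- the commutator of root elements -/
theorem xx_commutator {r s : ℕ} (hr : r < D.nroots) (hs : s < D.nroots) (hrs : s ≠ r) (hneg : s ≠ D.neg r) (t u : K) :
    ((⁅xx hp K s u, xx hp K r t⁆ : ↥(D.group K)) : GL D.Idx K) = wordG hp.inList (D.commWord K r s (-t) (-u)) := by
  rw [← comm_xG hp hr hs hrs hneg, xG_inv, xG_inv, _root_.neg_neg, _root_.neg_neg]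
  rfl

/-- root elements commute if all coefficients of the commutator formula vanish -/
theorem xx_comm_of_coeff {r s : ℕ} (hr : r < D.nroots) (hs : s < D.nroots) (hrs : s ≠ r) (hneg : s ≠ D.neg r)
    (hc : ∀ v ∈ D.commTerms r s, ((v.2.1 : ℤ) : K) = 0) (t u : K) :
    xx hp K s u * xx hp K r t = xx hp K r t * xx hp K s u := by
  have h1 : (⁅xx hp K s u, xx hp K r t⁆ : ↥(D.group K)) = 1 := by
    apply Subtype.ext
    rw [xx_commutator hp K hr hs hrs hneg]
    refine wordG_eq_one hp K _ ?_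
    intro p hp'
    have hp'' : p ∈ (D.commTerms r s).map fun c => (c.1, (c.2.1 : K) * (- -t) ^ c.2.2.1 * (-u) ^ c.2.2.2) := hp'
    obtain ⟨v, hv, rfl⟩ := List.mem_map.1 hp''
    show (v.2.1 : K) * (- -t) ^ v.2.2.1 * (-u) ^ v.2.2.2 = 0
    rw [hc v hv, zero_mul, zero_mul]
  exact commutatorElement_eq_one_iff_mul_comm.1 h1

theorem hh_conj (i : Fin l) {s : ℕ} (hs : s < D.nroots) {c : K} (hc : c ≠ 0) (t : K) :
    hh hp K i c * xx hp K s t * (hh hp K i c)⁻¹ = xx hp K s (c ^ (D.cartan i s) * t) :=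
  Subtype.ext (conj_hG hp K i hs c hc t)

/-- a subgroup containing all root elements is the whole group -/
theorem top_le_of_xx (H : Subgroup ↥(D.group K)) (h : ∀ r < D.nroots, ∀ t, xx hp K r t ∈ H) : H = ⊤ := by
  rw [eq_top_iff]
  intro g _
  have h1 : D.group K ≤ H.map (D.group K).subtype := by
    unfold ChevalleyDatum.group
    rw [Subgroup.closure_le]
    rintro x ⟨r, t, hx⟩
    have h2 : x = xG hp.inList r t := by
      rw [eq_xG_iff, hx, x_of_lt r.2 t]
    rw [h2]
    exact ⟨xx hp K r t, h r r.2 t, rfl⟩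
  obtain ⟨y, hy, hyg⟩ := h1 g.2
  have : y = g := Subtype.ext hyg
  rwa [← this]

/-- `h_{p_i}(c)` lies in every subgroup containing the root elements of `± p_i` -/
theorem hh_mem {H : Subgroup ↥(D.group K)} (i : Fin l) (h : ∀ t, xx hp K (D.simple i) t ∈ H)
    (h' : ∀ t, xx hp K (D.neg (D.simple i)) t ∈ H) (c : K) : hh hp K i c ∈ H := by
  have hn : ∀ c : K, (⟨nG hp.inList (D.simple i) c, nG_mem_group hp.inList _ c⟩ : ↥(D.group K)) ∈ H := by
    intro c
    have e : (⟨nG hp.inList (D.simple i) c, nG_mem_group hp.inList _ c⟩ : ↥(D.group K)) =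
        xx hp K (D.simple i) c * (xx hp K (D.neg (D.simple i)) (-c⁻¹) * xx hp K (D.simple i) c) :=
      Subtype.ext (nG_def hp.inList (D.simple i) c)
    rw [e]
    exact mul_mem (h _) (mul_mem (h' _) (h _))
  have e : hh hp K i c = (⟨nG hp.inList (D.simple i) c, nG_mem_group hp.inList _ c⟩ : ↥(D.group K)) *
      ⟨nG hp.inList (D.simple i) (-1), nG_mem_group hp.inList _ (-1)⟩ := Subtype.ext (hG_def hp.inList (D.simple i) c)
  rw [e]
  exact mul_mem (hn _) (hn _)

end Cfsg.Agent.H808.GTwo
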