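import Mathlib
import Cfsg.Agent.H808.GTwo.NoEv
import Cfsg.Agent.S1055

/-!
# `NoEv` for `G₂(3)` (helper808, task 2047 of helper254)
-/

set_option autoImplicit false
set_option linter.unusedSectionVars false

namespace Cfsg.Agent.H808.GTwo

open Cfsg.Agent.ChevalleyStructure
open Cfsg Cfsg.Lie Cfsg.Lie.ChevalleyDatum
open Cfsg.Agent.ChevalleyStructure.Elts Cfsg.Agent.ChevalleyStructure.NPerm
open Cfsg.Agent.Nodes.RGDChev
open Cfsg.Agent.OddHalf.LongSL Cfsg.Agent.OddHalf.LongSL.Chev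
open Cfsg.Agent.H808.D4 Cfsg.Agent.H254.Ev
open scoped commutatorElement

theorem perm_comb : ∀ a b : Equiv.Perm (Fin 4), a ^ 3 = 1 → b ^ 3 = 1 → a * b = b * a →
    a = 1 ∨ b = 1 ∨ a * b = 1 ∨ a * b * b = 1 := by decide +kernel

theorem perm_comm {a b c : Equiv.Perm (Fin 4)} (ha : a ^ 3 = 1) (hb : b ^ 3 = 1) (hc : c ^ 3 = 1) (ha1 : a ≠ 1)
    (hab : a * b = b * a) (hac : a * c = c * a) : b * c = c * b := by
  have key : ∀ b : Equiv.Perm (Fin 4), b ^ 3 = 1 → a * b = b * a → b ∈ Subgroup.zpowers a := by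
    intro b hb hab
    rcases perm_comb a b ha hb hab with h | h | h | h
    · exact absurd h ha1
    · rw [h]; exact one_mem _
    · rw [← inv_eq_of_mul_eq_one_right h]
      exact inv_mem (Subgroup.mem_zpowers a)
    · have h1 : b = a := by
        have h2 : a * b * b * b = a * b ^ 3 := by rw [pow_succ, pow_two, mul_assoc, mul_assoc, mul_assoc]
        rw [h, hb, one_mul, mul_one] at h2
        exact h2
      rw [h1]
      exact Subgroup.mem_zpowers a
  obtain ⟨i, rfl⟩ := key b hb hab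
  obtain ⟨j, rfl⟩ := key c hc hac
  exact Commute.zpow_zpow_self a i j

section abs

variable {G : Type*} [Group G] {H D : Subgroup G} {k : ℕ}

/-- two commuting elements of order 3 of `N(D)`: a combination lies in `D` -/
theorem comb (h : EvTI k H D) {x y : G} (hx : x ∈ Subgroup.normalizer (D : Set G))
    (hy : y ∈ Subgroup.normalizer (D : Set G)) (hx3 : x ^ 3 = 1) (hy3 : y ^ 3 = 1) (hxy : x * y = y * x) :
    x ∈ D ∨ y ∈ D ∨ x * y ∈ D ∨ x * y * y ∈ D := by
  obtain ⟨f, hf⟩ := h.hom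
  have h1 := perm_comb (f ⟨x, hx⟩) (f ⟨y, hy⟩) (by rw [← map_pow, ← map_one f]; exact congrArg f (Subtype.ext hx3))
    (by rw [← map_pow, ← map_one f]; exact congrArg f (Subtype.ext hy3))
    (by rw [← map_mul, ← map_mul]; exact congrArg f (Subtype.ext hxy))
  rw [← map_mul, ← map_mul] at h1
  rcases h1 with h1 | h1 | h1 | h1
  · exact Or.inl ((hf _).1 h1)
  · exact Or.inr (Or.inl ((hf _).1 h1))
  · exact Or.inr (Or.inr (Or.inl ((hf _).1 h1)))
  · exact Or.inr (Or.inr (Or.inr ((hf _).1 h1)))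

/-- the commutator of two elements of order 3 of `N(D)` commuting with `a ∈ N(D) - D` lies in `D` -/
theorem comm_mem (h : EvTI k H D) {a b c : G} (ha : a ∈ Subgroup.normalizer (D : Set G))
    (hb : b ∈ Subgroup.normalizer (D : Set G)) (hc : c ∈ Subgroup.normalizer (D : Set G)) (ha3 : a ^ 3 = 1)
    (hb3 : b ^ 3 = 1) (hc3 : c ^ 3 = 1) (haD : a ∉ D) (hab : a * b = b * a) (hac : a * c = c * a) : ⁅b, c⁆ ∈ D := by
  obtain ⟨f, hf⟩ := h.hom
  have h1 := perm_comm (a := f ⟨a, ha⟩) (b := f ⟨b, hb⟩) (c := f ⟨c, hc⟩)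
    (by rw [← map_pow, ← map_one f]; exact congrArg f (Subtype.ext ha3))
    (by rw [← map_pow, ← map_one f]; exact congrArg f (Subtype.ext hb3))
    (by rw [← map_pow, ← map_one f]; exact congrArg f (Subtype.ext hc3))
    (fun h2 => haD ((hf _).1 h2))
    (by rw [← map_mul, ← map_mul]; exact congrArg f (Subtype.ext hab))
    (by rw [← map_mul, ← map_mul]; exact congrArg f (Subtype.ext hac))
  have h2 : f ⁅(⟨b, hb⟩ : ↥(Subgroup.normalizer (D : Set G))), ⟨c, hc⟩⁆ = 1 := by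
    rw [map_commutatorElement]
    exact commutatorElement_eq_one_iff_mul_comm.2 h1
  exact (hf _).1 h2

end abs

/-- the root elements of `w_i s` from those of `s` and `± p_i` -/
theorem xx_reflect {D : ChevalleyDatum} {l : ℕ} {M : CoxeterMatrix (Fin l)} (hp : IsType D l M) (K : Type) [Field K]
    {H : Subgroup ↥(D.group K)} (i : Fin l) (hi : (i : ℕ) < D.rank) (h : ∀ t, xx hp K (D.simple i) t ∈ H)
    (h' : ∀ t, xx hp K (D.neg (D.simple i)) t ∈ H) {s : ℕ} (hs : s < D.nroots) (hsH : ∀ t, xx hp K s t ∈ H) (t : K) :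
    xx hp K (D.reflectRoot i s) t ∈ H := by
  have hn : (⟨nG hp.inList (D.simple i) 1, nG_mem_group hp.inList _ 1⟩ : ↥(D.group K)) ∈ H := by
    have e : (⟨nG hp.inList (D.simple i) 1, nG_mem_group hp.inList _ 1⟩ : ↥(D.group K)) =
        xx hp K (D.simple i) 1 * (xx hp K (D.neg (D.simple i)) (-1⁻¹) * xx hp K (D.simple i) 1) :=
      Subtype.ext (nG_def hp.inList (D.simple i) 1)
    rw [e]
    exact mul_mem (h _) (mul_mem (h' _) (h _))
  have h1 := conjRoot_nG (F := K) hp.inList hi hs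
  have h2 : xG hp.inList (D.reflectRoot i s) t ∈
      (D.rootSubgroup K s).map (MulAut.conj (nG hp.inList (D.simple i) 1)).toMonoidHom := by
    rw [h1]
    exact xG_mem_rootSubgroup hp.inList _ _
  obtain ⟨x, hx, hxe⟩ := h2
  obtain ⟨u, rfl⟩ := (mem_rootSubgroup_iff hp.inList s x).1 hx
  have e : xx hp K (D.reflectRoot i s) t = (⟨nG hp.inList (D.simple i) 1, nG_mem_group hp.inList _ 1⟩ : ↥(D.group K)) *
      xx hp K s u * (⟨nG hp.inList (D.simple i) 1, nG_mem_group hp.inList _ 1⟩ : ↥(D.group K))⁻¹ :=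
    Subtype.ext hxe.symm
  rw [e]
  exact mul_mem (mul_mem hn (hsH u)) (inv_mem hn)

section

variable (F : Type) [Field F] [Fintype F]

theorem xx_cube (h3 : (3 : F) = 0) (r : ℕ) (t : F) : xx hG2 F r t ^ 3 = 1 := by
  rw [pow_succ, pow_two, xx_add, xx_add, ← xx_zero hG2 F r]
  congr 1
  linear_combination t * h3

/-- the commuting pairs of positive roots (with a coefficient condition) -/
theorem tab3 : ∀ r ∈ ([9, 11] : List ℕ), ∀ s ∈ ([6, 7, 8, 9, 10, 11] : List ℕ), r < chevG2.nroots ∧ s < chevG2.nroots ∧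
    (s ≠ r → s ≠ chevG2.neg r ∧ ∀ v ∈ chevG2.commTerms r s, (3 : ℤ) ∣ v.2.1) := by decide +kernel

theorem comm3 (h3 : (3 : F) = 0) {r s : ℕ} (hr : r ∈ ([9, 11] : List ℕ)) (hs : s ∈ ([6, 7, 8, 9, 10, 11] : List ℕ))
    (t u : F) : xx hG2 F r t * xx hG2 F s u = xx hG2 F s u * xx hG2 F r t := by
  obtain ⟨h1, h2, h4⟩ := tab3 r hr s hs
  by_cases hsr : s = r
  · subst hsr
    rw [xx_add, xx_add, add_comm]
  · obtain ⟨h5, h6⟩ := h4 hsr
    refine (xx_comm_of_coeff hG2 F h1 h2 hsr h5 ?_ t u).symm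
    intro v hv
    obtain ⟨c, hc⟩ := h6 v hv
    rw [hc]
    push_cast
    rw [h3, zero_mul]

theorem neg6 : chevG2.neg 6 = 5 := by decide +kernel

theorem terms_6_10 : chevG2.commTerms 6 10 = [(11, 1, 1, 1)] := by decide +kernel

theorem terms_7_8 : chevG2.commTerms 7 8 = [(9, -2, 1, 1), (10, -3, 2, 1), (11, 3, 1, 2)] := by decide +kernel

theorem ne_10_6 : (10 : ℕ) ≠ chevG2.neg 6 := by decide +kernel

theorem ne_8_7 : (8 : ℕ) ≠ chevG2.neg 7 := by decide +kernel

theorem comm_10_6 : ⁅xx hG2 F 10 (-1), xx hG2 F 6 1⁆ = xx hG2 F 11 1 := by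
  apply Subtype.ext
  rw [xx_commutator hG2 F (by rw [nroots_G2]; norm_num) (by rw [nroots_G2]; norm_num) (by norm_num) ne_10_6]
  have e : chevG2.commWord F 6 10 (-1) (- -1) = [(11, 1)] := by
    show (chevG2.commTerms 6 10).map (fun c => (c.1, (c.2.1 : F) * (- -1) ^ c.2.2.1 * (- -1) ^ c.2.2.2)) = _
    rw [terms_6_10]
    simp
  rw [e, wordG_cons]
  exact mul_one _

theorem comm_8_7 (h3 : (3 : F) = 0) (t : F) : ⁅xx hG2 F 8 (-1), xx hG2 F 7 t⁆ = xx hG2 F 9 t := by
  apply Subtype.ext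
  rw [xx_commutator hG2 F (by rw [nroots_G2]; norm_num) (by rw [nroots_G2]; norm_num) (by norm_num) ne_8_7]
  have e : chevG2.commWord F 7 8 (-t) (- -1) = [(9, t), (10, 0), (11, 0)] := by
    show (chevG2.commTerms 7 8).map (fun c => (c.1, (c.2.1 : F) * (- -t) ^ c.2.2.1 * (- -1) ^ c.2.2.2)) = _
    rw [terms_7_8]
    simp only [List.map_cons, List.map_nil]
    push_cast
    rw [h3]
    have : (-2 : F) * (- -t) ^ 1 * (- -1) ^ 1 = t := by linear_combination (-t) * h3
    rw [this]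
    simp
  rw [e, wordG_cons, wordG_cons, wordG_cons, xG_zero, xG_zero, one_mul, one_mul]
  exact mul_one _

/-- `N(D)` contains a conjugate of everything: the main argument, `D` contains the involution `z` -/
theorem normalizer_top_of_zz (h3 : (3 : F) = 0) {H D : Subgroup ↥(chevG2.group F)} {k : ℕ} (h : EvTI k H D)
    (hz : zz F ∈ D) : Subgroup.normalizer (D : Set ↥(chevG2.group F)) = ⊤ := by
  have h2 : (2 : F) ≠ 0 := by
    intro h2
    apply one_ne_zero (α := F)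
    linear_combination h3 - h2
  have hlt : ∀ {r : ℕ}, r < 12 → r < chevG2.nroots := fun hr => by rwa [nroots_G2]
  have m9 : 9 ∈ ([9, 11] : List ℕ) := by simp
  have m11 : 11 ∈ ([9, 11] : List ℕ) := by simp
  -- `x₁₁(1), x₇(1) ∈ N(D)`
  have a11 : xx hG2 F 11 1 ∈ Subgroup.normalizer (D : Set ↥(chevG2.group F)) :=
    h.cent hz (zz_ne h2) (zz_conj (hlt (by norm_num)) even11.1 1).symm
  have a7 : xx hG2 F 7 1 ∈ Subgroup.normalizer (D : Set ↥(chevG2.group F)) :=
    h.cent hz (zz_ne h2) (zz_conj (hlt (by norm_num)) (by decide +kernel) 1).symm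
  -- a non-trivial `x₁₁(s) x₇(t) ∈ D`
  obtain ⟨s, t, hst, hD1⟩ : ∃ s t : F, (s ≠ 0 ∨ t ≠ 0) ∧ xx hG2 F 11 s * xx hG2 F 7 t ∈ D := by
    rcases comb h a11 a7 (xx_cube F h3 _ _) (xx_cube F h3 _ _) (comm3 F h3 m11 (by simp) 1 1) with h1 | h1 | h1 | h1
    · exact ⟨1, 0, Or.inl one_ne_zero, by rwa [xx_zero, mul_one]⟩
    · exact ⟨0, 1, Or.inr one_ne_zero, by rwa [xx_zero, one_mul]⟩
    · exact ⟨1, 1, Or.inl one_ne_zero, h1⟩
    · exact ⟨1, 1 + 1, Or.inl one_ne_zero, by rwa [← xx_add, ← mul_assoc]⟩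
  have hw1 : xx hG2 F 11 s * xx hG2 F 7 t ≠ 1 := by
    intro h1
    by_cases ht : t = 0
    · rw [ht, xx_zero, mul_one] at h1
      exact xx_ne_one hG2 F (hlt (by norm_num)) (hst.resolve_right (not_not.2 ht)) h1
    · have h4 : xx hG2 F 7 t = xx hG2 F 11 (-s) := by
        rw [← xx_inv]
        exact (inv_eq_of_mul_eq_one_right h1).symm
      have h5 := comm_8_7 F h3 t
      rw [h4, commutatorElement_eq_one_iff_mul_comm.2 (comm3 F h3 m11 (by simp) _ _).symm] at h5
      exact xx_ne_one hG2 F (hlt (by norm_num)) ht h5.symm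
  have hcw : ∀ {r : ℕ}, r ∈ ([9, 11] : List ℕ) → ∀ u, xx hG2 F r u * (xx hG2 F 11 s * xx hG2 F 7 t) =
      xx hG2 F 11 s * xx hG2 F 7 t * xx hG2 F r u := by
    intro r hr u
    rw [← mul_assoc, comm3 F h3 hr (by simp) u s, mul_assoc, comm3 F h3 hr (by simp) u t, mul_assoc]
  -- `x₁₁(1), x₉(1) ∈ N(D)`
  have b11 := h.cent hD1 hw1 (hcw m11 1)
  have b9 := h.cent hD1 hw1 (hcw m9 1)
  obtain ⟨a, b, hab, hD2⟩ : ∃ s t : F, (s ≠ 0 ∨ t ≠ 0) ∧ xx hG2 F 11 s * xx hG2 F 9 t ∈ D := by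
    rcases comb h b11 b9 (xx_cube F h3 _ _) (xx_cube F h3 _ _) (comm3 F h3 m11 (by simp) 1 1) with h1 | h1 | h1 | h1
    · exact ⟨1, 0, Or.inl one_ne_zero, by rwa [xx_zero, mul_one]⟩
    · exact ⟨0, 1, Or.inr one_ne_zero, by rwa [xx_zero, one_mul]⟩
    · exact ⟨1, 1, Or.inl one_ne_zero, h1⟩
    · exact ⟨1, 1 + 1, Or.inl one_ne_zero, by rwa [← xx_add, ← mul_assoc]⟩
  have tab9 : 9 < chevG2.nroots ∧ 4 < chevG2.nroots ∧ 5 < chevG2.nroots ∧ 11 < chevG2.nroots ∧
      chevG2.commTerms 9 5 = [] ∧ chevG2.commTerms 11 4 = [] ∧ 5 ≠ chevG2.neg 9 ∧ 4 ≠ chevG2.neg 11 := by decide +kernel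
  have hw2 : xx hG2 F 11 a * xx hG2 F 9 b ≠ 1 := by
    intro h1
    by_cases ha : a = 0
    · rw [ha, xx_zero, one_mul] at h1
      exact xx_ne_one hG2 F (hlt (by norm_num)) (hab.resolve_left (not_not.2 ha)) h1
    · by_cases hb : b = 0
      · rw [hb, xx_zero, mul_one] at h1
        exact xx_ne_one hG2 F (hlt (by norm_num)) ha h1
      · have h4 : xx hG2 F 9 b = xx hG2 F 11 (-a) := by
          rw [← xx_inv]
          exact (inv_eq_of_mul_eq_one_right h1).symm
        -- `h₀(-1)` commutes with `x₁₁`, inverts `x₉`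
        have c9 : chevG2.cartan ((0 : Fin 2) : ℕ) 9 = 1 := by decide +kernel
        have c11 : chevG2.cartan ((0 : Fin 2) : ℕ) 11 = 0 := by decide +kernel
        have e9 := hh_conj hG2 F 0 (hlt (r := 9) (by norm_num)) (neg_ne_zero.2 (one_ne_zero (α := F))) b
        have e11 := hh_conj hG2 F 0 (hlt (r := 11) (by norm_num)) (neg_ne_zero.2 (one_ne_zero (α := F))) (-a)
        rw [c9, zpow_one] at e9
        rw [c11, zpow_zero, one_mul] at e11
        rw [h4, e11, ← h4] at e9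
        have h5 := xx_injective hG2 F (hlt (r := 9) (by norm_num)) e9
        apply hb
        have h6 : (2 : F) * b = 0 := by linear_combination h5
        exact (mul_eq_zero.1 h6).resolve_left h2
  -- all positive root elements lie in `N(D)`
  have hpos : ∀ r ∈ ([6, 7, 8, 9, 10, 11] : List ℕ), ∀ u, xx hG2 F r u ∈
      Subgroup.normalizer (D : Set ↥(chevG2.group F)) := by
    intro r hr u
    refine h.cent hD2 hw2 ?_
    rw [← mul_assoc, ← comm3 F h3 m11 hr a u, mul_assoc, ← comm3 F h3 m9 hr b u, mul_assoc]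
  -- `x₁₁(1) ∈ D`
  have d11 : xx hG2 F 11 1 ∈ D := by
    by_contra hcon
    apply hcon
    rw [← comm_10_6 F]
    exact comm_mem h b11 (hpos 10 (by simp) _) (hpos 6 (by simp) _) (xx_cube F h3 _ _) (xx_cube F h3 _ _)
      (xx_cube F h3 _ _) hcon (comm3 F h3 m11 (by simp) _ _) (comm3 F h3 m11 (by simp) _ _)
  have d9 : xx hG2 F 9 1 ∈ D := by
    by_contra hcon
    apply hcon
    rw [← comm_8_7 F h3 1]
    exact comm_mem h b9 (hpos 8 (by simp) _) (hpos 7 (by simp) _) (xx_cube F h3 _ _) (xx_cube F h3 _ _)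
      (xx_cube F h3 _ _) hcon (comm3 F h3 m9 (by simp) _ _) (comm3 F h3 m9 (by simp) _ _)
  obtain ⟨t9, t4, t5, t11, e5, e4, n5, n4⟩ := tab9
  have f4 : ∀ u, xx hG2 F 4 u ∈ Subgroup.normalizer (D : Set ↥(chevG2.group F)) := fun u =>
    h.cent d11 (xx_ne_one hG2 F t11 one_ne_zero) (xx_comm hG2 F t11 t4 (by norm_num) n4 e4 1 u)
  have f5 : ∀ u, xx hG2 F 5 u ∈ Subgroup.normalizer (D : Set ↥(chevG2.group F)) := fun u =>
    h.cent d9 (xx_ne_one hG2 F t9 one_ne_zero) (xx_comm hG2 F t9 t5 (by norm_num) n5 e5 1 u)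
  have r0 : ∀ {s s' : ℕ}, s < 12 → chevG2.reflectRoot ((0 : Fin 2) : ℕ) s = s' →
      (∀ u, xx hG2 F s u ∈ Subgroup.normalizer (D : Set ↥(chevG2.group F))) →
      ∀ u, xx hG2 F s' u ∈ Subgroup.normalizer (D : Set ↥(chevG2.group F)) := by
    intro s s' hs e hsH u
    rw [← e]
    exact xx_reflect hG2 F 0 (by decide +kernel) (fun t => by rw [simple0]; exact hpos 7 (by simp) t)
      (fun t => by rw [simple0, neg7]; exact f4 t) (hlt hs) hsH u
  have r1 : ∀ {s s' : ℕ}, s < 12 → chevG2.reflectRoot ((1 : Fin 2) : ℕ) s = s' →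
      (∀ u, xx hG2 F s u ∈ Subgroup.normalizer (D : Set ↥(chevG2.group F))) →
      ∀ u, xx hG2 F s' u ∈ Subgroup.normalizer (D : Set ↥(chevG2.group F)) := by
    intro s s' hs e hsH u
    rw [← e]
    exact xx_reflect hG2 F 1 (by decide +kernel) (fun t => by rw [simple1]; exact hpos 6 (by simp) t)
      (fun t => by rw [simple1, neg6]; exact f5 t) (hlt hs) hsH u
  have f1 := r0 (s := 5) (s' := 1) (by norm_num) (by decide +kernel) f5
  have f3 := r1 (s := 4) (s' := 3) (by norm_num) (by decide +kernel) f4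
  have f2 := r0 (s := 3) (s' := 2) (by norm_num) (by decide +kernel) f3
  have f0 := r1 (s := 1) (s' := 0) (by norm_num) (by decide +kernel) f1
  refine top_le_of_xx hG2 F _ ?_
  intro r hr t
  rw [nroots_G2] at hr
  interval_cases r
  · exact f0 t
  · exact f1 t
  · exact f2 t
  · exact f3 t
  · exact f4 t
  · exact f5 t
  · exact hpos 6 (by simp) t
  · exact hpos 7 (by simp) t
  · exact hpos 8 (by simp) t
  · exact hpos 9 (by simp) t
  · exact hpos 10 (by simp) t
  · exact hpos 11 (by simp) t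

end

/-- the number of fixed cosets of a conjugate of `H` -/
theorem ncard_conj {G : Type*} [Group G] [Finite G] (H : Subgroup G) (g x : G) :
    (MulAction.fixedBy (G ⧸ H.map (MulAut.conj g).toMonoidHom) x).ncard =
      (MulAction.fixedBy (G ⧸ H) (g⁻¹ * x * g)).ncard := by
  have htr : MulAction.IsPretransitive G (G ⧸ H) := inferInstance
  have hst : MulAction.stabilizer G (g : G ⧸ H) = H.map (MulAut.conj g).toMonoidHom := by
    ext y
    rw [MulAction.mem_stabilizer_iff, Cfsg.Agent.EvenType.StrongP.mem_map_conj, ← mk_mem_fixedBy (H := H)]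
    rfl
  rw [← hst, ncard_fixedBy_quot htr]
  have h3 : MulAction.fixedBy (G ⧸ H) x = (fun a => g • a) '' MulAction.fixedBy (G ⧸ H) (g⁻¹ * x * g) := by
    ext a
    constructor
    · intro ha
      refine ⟨g⁻¹ • a, ?_, smul_inv_smul g a⟩
      rw [MulAction.mem_fixedBy] at ha ⊢
      rw [mul_smul, mul_smul, smul_inv_smul, ha]
    · rintro ⟨b, hb, rfl⟩
      rw [MulAction.mem_fixedBy] at hb ⊢
      rw [mul_smul, mul_smul, inv_smul_eq_iff] at hb
      exact hb
  rw [h3, Set.ncard_image_of_injective _ (MulAction.injective g)]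

/-- **`G₂(3)`.** -/
theorem noEv_g2_three (F : Type) [Field F] [Fintype F] (h : Fintype.card F = 3) :
    NoEv ↥(Cfsg.Lie.chevG2.group F) := by
  rintro H hH ⟨t, ht2, ht4⟩
  have hfin : Finite ↥(chevG2.group F) := finite_G2
  have h3 : (3 : F) = 0 := by
    have h1 : ((Fintype.card F : ℕ) : F) = 0 := Nat.cast_card_eq_zero F
    rw [h] at h1
    exact_mod_cast h1
  have ho : Odd (Fintype.card F) := by rw [h]; decide
  have h2 : (2 : F) ≠ 0 := two_ne_of_odd ho
  have hs : IsSimpleGroup ↥(chevG2.group F) := (S1055.result (F := F) ⟨-1, neg_ne_zero.2 one_ne_zero, fun h1 => h2 (by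
    linear_combination -h1)⟩).1
  have hH1 : H ≠ ⊤ := ne_top_of_exact (by norm_num) ht4
  obtain ⟨a, ha, ha4⟩ := exists_conj_exact (by norm_num) ht4
  have ha2 : orderOf (a⁻¹ * t * a) = 2 := by
    rw [← ht2]
    have := (MulAut.conj a⁻¹).orderOf_eq t
    simpa using this
  obtain ⟨c, hc⟩ := isConj_iff.1 (S4278.result ho _ (zz F) ha2 (orderOf_zz h2))
  have hHc := hH.conj c
  have hz : zz F ∈ H.map (MulAut.conj c).toMonoidHom := ⟨a⁻¹ * t * a, ha, hc⟩
  have hz4 : (MulAction.fixedBy (↥(chevG2.group F) ⧸ H.map (MulAut.conj c).toMonoidHom) (zz F)).ncard = 4 := by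
    rw [ncard_conj, ← hc, ← ha4]
    congr 2
    group
  obtain ⟨D, hD, hzD⟩ := hHc.exists_ti (by norm_num) le_rfl hz (zz_ne h2) hz4
  refine hD.normalizer_ne_top ?_ (normalizer_top_of_zz F h3 hD hzD)
  intro htop
  apply hH1
  rw [eq_top_iff]
  intro y _
  have h3 : c * y * c⁻¹ ∈ H.map (MulAut.conj c).toMonoidHom := by rw [htop]; trivial
  obtain ⟨w, hw, hwy⟩ := h3
  have hwy' : c * w * c⁻¹ = c * y * c⁻¹ := hwy
  rwa [← mul_left_cancel (mul_right_cancel hwy')]

end Cfsg.Agent.H808.GTwo
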